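import Mathlib
import Cfsg.Prelude.Def_ClassicalGeometry

/-! Normal form of transvections in the special linear group. -/

set_option autoImplicit false

namespace Cfsg.Agent.Trans25

open Matrix

variable {F : Type*} [Field F]

theorem exists_rank_one {ι : Type} [Fintype ι] [DecidableEq ι] (N : Matrix ι ι F) (h : N.rank = 1) :
    ∃ u w : ι → F, u ≠ 0 ∧ w ≠ 0 ∧ N = vecMulVec u w := by
  rw [Matrix.rank] at h
  obtain ⟨⟨u, hu⟩, hu0, hspan⟩ := finrank_eq_one_iff'.1 h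
  have hu0' : u ≠ 0 := fun h0 => hu0 (Subtype.ext h0)
  choose c hc using fun j => hspan ⟨N.mulVecLin (Pi.single j 1), LinearMap.mem_range_self _ _⟩
  have hN : N = vecMulVec u c := by
    ext i j
    have := congrArg (fun x => (Subtype.val x) i) (hc j)
    simp at this
    simp [vecMulVec_apply, ← this, mul_comm]
  refine ⟨u, c, hu0', ?_, hN⟩
  rintro rfl
  have hz : N = 0 := by rw [hN]; ext i j; simp [vecMulVec_apply]
  subst hz
  obtain ⟨x, hx⟩ := hu
  exact hu0' (by simpa using hx.symm)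

theorem sl_mul_inv {ι : Type} [Fintype ι] [DecidableEq ι] (g : Matrix.SpecialLinearGroup ι F) :
    (g : Matrix ι ι F) * ((g⁻¹ : Matrix.SpecialLinearGroup ι F) : Matrix ι ι F) = 1 := by
  rw [← Matrix.SpecialLinearGroup.coe_mul, mul_inv_cancel, Matrix.SpecialLinearGroup.coe_one]

theorem sl_inv_mul {ι : Type} [Fintype ι] [DecidableEq ι] (g : Matrix.SpecialLinearGroup ι F) :
    ((g⁻¹ : Matrix.SpecialLinearGroup ι F) : Matrix ι ι F) * (g : Matrix ι ι F) = 1 := by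
  rw [← Matrix.SpecialLinearGroup.coe_mul, inv_mul_cancel, Matrix.SpecialLinearGroup.coe_one]

theorem exists_sl_vecMul {n : ℕ} (w : Fin (n + 1) → F) (hw : w ≠ 0) :
    ∃ (g : Matrix.SpecialLinearGroup (Fin (n + 1)) F) (a : F), a ≠ 0 ∧
      w ᵥ* (g : Matrix (Fin (n + 1)) (Fin (n + 1)) F) = a • Pi.single 0 1 := by
  classical
  obtain ⟨k, hk⟩ : ∃ k, w k ≠ 0 := Function.ne_iff.1 hw
  have hd : (updateRow (1 : Matrix (Fin (n + 1)) (Fin (n + 1)) F) k w).det = w k := by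
    have h1 : w = ∑ j, w j • (1 : Matrix (Fin (n + 1)) (Fin (n + 1)) F) j := by
      ext i; simp [Finset.sum_apply, Matrix.one_apply]
    conv_lhs => rw [h1]
    rw [det_updateRow_sum, det_one, smul_eq_mul, mul_one]
  set A := updateRow (1 : Matrix (Fin (n + 1)) (Fin (n + 1)) F) k w with hA
  set M0 := A.submatrix (Equiv.swap 0 k) id with hM0
  have hd0 : M0.det ≠ 0 := by
    rw [hM0, det_permute, hd]
    exact mul_ne_zero (by rcases Int.units_eq_one_or (Equiv.Perm.sign (Equiv.swap 0 k)) with h | h <;> simp [h]) hk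
  have hrow : M0 0 = w := by
    ext j; simp [hM0, hA]
  have hdet : (updateRow M0 0 (M0.det⁻¹ • M0 0)).det = 1 := by
    rw [det_updateRow_smul, updateRow_eq_self, inv_mul_cancel₀ hd0]
  obtain ⟨M, hM⟩ : ∃ M : Matrix.SpecialLinearGroup (Fin (n + 1)) F,
      (M : Matrix (Fin (n + 1)) (Fin (n + 1)) F) = updateRow M0 0 (M0.det⁻¹ • M0 0) := ⟨⟨_, hdet⟩, rfl⟩
  refine ⟨M⁻¹, M0.det, hd0, ?_⟩
  have h2 : w = (M0.det • (Pi.single 0 1 : Fin (n + 1) → F)) ᵥ*
      (M : Matrix (Fin (n + 1)) (Fin (n + 1)) F) := by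
    rw [smul_vecMul]
    ext j
    simp [hM, hrow, hd0]
  conv_lhs => rw [h2, vecMul_vecMul, sl_mul_inv, vecMul_one]

theorem exists_conj_normal_form {n : ℕ} (t : Matrix.SpecialLinearGroup (Fin (n + 2)) F)
    (ht : Cfsg.IsTransvection (t : Matrix (Fin (n + 2)) (Fin (n + 2)) F)) :
    ∃ (g : Matrix.SpecialLinearGroup (Fin (n + 2)) F) (v : Fin (n + 2) → F), v ≠ 0 ∧ v 0 = 0 ∧
      ((g⁻¹ * t * g : Matrix.SpecialLinearGroup (Fin (n + 2)) F) :
        Matrix (Fin (n + 2)) (Fin (n + 2)) F) = 1 + vecMulVec v (Pi.single 0 1) := by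
  obtain ⟨hr, hsq⟩ := ht
  obtain ⟨u, w, hu, hw, hN⟩ := exists_rank_one _ hr
  have hwu : w ⬝ᵥ u = 0 := by
    rw [hN, vecMulVec_mul_vecMulVec] at hsq
    obtain ⟨i, hi⟩ := Function.ne_iff.1 hu
    obtain ⟨j, hj⟩ := Function.ne_iff.1 hw
    have := congrFun (congrFun hsq i) j
    simpa [vecMulVec_apply, show u i ≠ 0 from hi, show w j ≠ 0 from hj] using this
  obtain ⟨g, a, ha, hg⟩ := exists_sl_vecMul w hw
  refine ⟨g, a • ((g⁻¹ : Matrix.SpecialLinearGroup (Fin (n+2)) F) : Matrix (Fin (n + 2)) (Fin (n + 2)) F) *ᵥ u, ?_, ?_, ?_⟩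
  · intro h
    apply hu
    have := congrArg (fun x => (g : Matrix (Fin (n + 2)) (Fin (n + 2)) F) *ᵥ x) h
    simp only [mulVec_smul, mulVec_mulVec, mulVec_zero] at this
    rw [sl_mul_inv, one_mulVec] at this
    simpa [ha] using this
  · have : (w ᵥ* (g : Matrix (Fin (n + 2)) (Fin (n + 2)) F)) ⬝ᵥ
        (((g⁻¹ : Matrix.SpecialLinearGroup (Fin (n+2)) F) : Matrix (Fin (n + 2)) (Fin (n + 2)) F) *ᵥ u) = 0 := by
      rw [← dotProduct_mulVec, mulVec_mulVec, sl_mul_inv, one_mulVec, hwu]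
    rw [hg] at this
    simpa [ha] using this
  · have e : (t : Matrix (Fin (n + 2)) (Fin (n + 2)) F) = 1 + vecMulVec u w := by rw [← hN]; abel
    rw [Matrix.SpecialLinearGroup.coe_mul, Matrix.SpecialLinearGroup.coe_mul, e, mul_add, add_mul, mul_one,
      sl_inv_mul, mul_vecMulVec, vecMulVec_mul, hg, vecMulVec_smul]
    ext i j
    simp [vecMulVec_apply]

end Cfsg.Agent.Trans25
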